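import Mathlib
import Cfsg.Prelude.Def_Local
import Cfsg.Prelude.Def_CaseTheorems
import Cfsg.Prelude.Def_Transfer
import Cfsg.Prelude.Def_Classical
import Cfsg.Prelude.Def_Sz

/-! Project RC (S3860, notes/RC.md): definitions. -/

set_option autoImplicit false

namespace Cfsg.Agent.RC

open Subgroup

universe u

variable {G : Type u} [Group G]

abbrev cen (t : G) : Subgroup G := centralizer ({t} : Set G)
abbrev Cs (D : Subgroup G) : Subgroup G := centralizer (D : Set G)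
abbrev nor (D : Subgroup G) : Subgroup G := normalizer (D : Set G)
/-- `g D g⁻¹` -/
abbrev cj (g : G) (D : Subgroup G) : Subgroup G := D.map (MulAut.conj g).toMonoidHom

/-- 2-element -/
def Two (x : G) : Prop := ∃ n : ℕ, x ^ 2 ^ n = 1

/-- `y ∈ O(X)` -/
def InO (y : G) (X : Subgroup G) : Prop := ∃ N : Subgroup G, N ≤ X ∧ X ≤ nor N ∧ Odd (Nat.card N) ∧ y ∈ N

/-- `X / O(X)` is 2-closed -/
def Cl (X : Subgroup G) : Prop := ∃ N K : Subgroup G, N ≤ K ∧ K ≤ X ∧ X ≤ nor N ∧ X ≤ nor K ∧ Odd (Nat.card N) ∧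
  Odd (K.relIndex X) ∧ ∃ j : ℕ, N.relIndex K = 2 ^ j

/-- nontrivial real element of odd order -/
def RO (y : G) : Prop := y ≠ 1 ∧ Odd (orderOf y) ∧ IsConj y y⁻¹

/-- the hypothesis of S3860 -/
def Hm (G : Type u) [Group G] (k : ℕ) : Prop :=
  ∀ x : G, IsConj x x⁻¹ → x ∉ center G → (Nat.card (cen x)).factorization 2 = k

/-- a maximal counterexample -/
structure Cx (D : Subgroup G) : Prop where
  p2 : IsPGroup 2 D
  bad : ∃ y, RO y ∧ y ∈ Cs D ∧ ¬ InO y (Cs D)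
  max : ∀ D' : Subgroup G, IsPGroup 2 D' → Nat.card D < Nat.card D' → ∀ y, RO y → y ∈ Cs D' → InO y (Cs D')
  ns : ∀ y, RO y → y ∈ Cs D → ¬ InO y (Cs D) → ∃ τ ∈ nor D, τ ∈ cen y ∧ τ ∉ D ∧ τ * τ ∈ D

/-- the configuration in `N(D) / O(C(D))` -/
structure Qx (D : Subgroup G) : Prop where
  p2 : IsPGroup 2 D
  nrm : D.Normal
  o1 : ∀ y, InO y (Cs D) → y = 1
  x1 : ∀ u, Two u → u ∉ D → ∀ c ∈ Cs D ⊓ cen u, Odd (orderOf c) → ∀ s ∈ nor (D ⊔ zpowers u), s * c * s⁻¹ = c⁻¹ →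
    InO c (Cs D ⊓ cen u)
  x2 : ∀ y, RO y → y ∈ Cs D → ∃ τ ∈ cen y, τ ∉ D ∧ τ * τ ∈ D
  x3 : ∃ y ∈ Cs D, y ≠ 1 ∧ ∃ τ ∈ cen y, Two τ ∧ InO y (Cs D ⊓ cen τ)

/-- the component -/
structure Cp (D K : Subgroup G) : Prop extends Qx D where
  kn : K.Normal
  kc : K ≤ Cs D
  perf : ⁅K, K⁆ = K
  simp : IsSimpleGroup (K ⧸ center K)
  nab : ¬ IsMulCommutative (K ⧸ center K)
  syl : ∀ u ∈ Cs K, Two u → u ∈ D

/-- fixed points of an automorphism -/
def Fx (τ : MulAut G) : Subgroup G where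
  carrier := {x | τ x = x}
  one_mem' := map_one τ
  mul_mem' := fun {a b} (ha : τ a = a) (hb : τ b = b) => show τ (a * b) = a * b by rw [map_mul, ha, hb]
  inv_mem' := fun {a} (ha : τ a = a) => show τ a⁻¹ = a⁻¹ by rw [map_inv, ha]

@[simp] theorem mem_Fx {τ : MulAut G} {x : G} : x ∈ Fx τ ↔ τ x = x := Iff.rfl

theorem Fx_conj (t : G) : Fx (MulAut.conj t) = cen t := by
  ext x
  rw [mem_Fx, mem_centralizer_singleton_iff, MulAut.conj_apply, mul_inv_eq_iff_eq_mul, eq_comm]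

/-- the almost simple configuration -/
structure Hy (Γ : Subgroup (MulAut G)) : Prop where
  simp : IsSimpleGroup G
  nab : ¬ IsMulCommutative G
  inn : ∀ g : G, MulAut.conj g ∈ Γ
  b1 : ∀ y : G, y ≠ 1 → Odd (orderOf y) → ∀ α ∈ Γ, α y = y⁻¹ → ∃ τ ∈ Γ, orderOf τ = 2 ∧ τ y = y
  b2 : ∀ τ ∈ Γ, orderOf τ = 2 → ∀ c : G, Odd (orderOf c) → τ c = c → ∀ α ∈ Γ, α * τ = τ * α → α c = c⁻¹ →
    InO c (Fx τ)

/-- split rank one structure on the Sylow `p`-subgroups -/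
structure ZS (G : Type u) [Group G] (p : ℕ) : Prop where
  pp : p.Prime
  p2 : p ≠ 2
  reg : ∀ U V W : Sylow p G, V ≠ U → W ≠ U → ∃! u : G, u ∈ (U : Subgroup G) ∧ u • V = W
  tor : ∃ U V : Sylow p G, U ≠ V ∧ (U : Subgroup G) ≠ ⊥ ∧ ∃ y : G, y ≠ 1 ∧ IsConj y y⁻¹ ∧ y • U = U ∧ y • V = V ∧
    ∀ u ∈ (U : Subgroup G), u * y = y * u → u = 1

/-- the automorphism attached to the involution `t` -/
structure Ta (F : G → Subgroup G) (t : G) (τ : MulAut G) : Prop where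
  sq : τ * τ = 1
  fix : τ t = t
  uq : ∀ u ∈ F t, u * u = 1 → τ u = u → u = 1 ∨ u = t
  od : ∀ c ∈ cen t, τ c * c⁻¹ ∈ F t
  re : ∀ y, y ≠ 1 → Odd (orderOf y) → τ y = y⁻¹ → ∀ u, orderOf u = 2 → u * y ≠ y * u

/-- 2-closed centralisers of characteristic 2 -/
structure C0 (F : G → Subgroup G) : Prop where
  simp : IsSimpleGroup G
  nab : ¬ IsMulCommutative G
  p2 : ∀ t, orderOf t = 2 → IsPGroup 2 (F t)
  mem : ∀ t, orderOf t = 2 → ∀ x, x ∈ F t ↔ x ∈ cen t ∧ Two x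
  sc : ∀ t, orderOf t = 2 → Cs (F t) ≤ F t

structure C1 (F : G → Subgroup G) : Prop extends C0 F where
  odd : ∀ t, orderOf t = 2 → Odd (F t).index
  tau : ∀ t, orderOf t = 2 → ∃ τ, Ta F t τ

/-- `B = [F t, l]` -/
abbrev Bt (F : G → Subgroup G) (t l : G) : Subgroup G := ⁅F t, zpowers l⁆
/-- `Y = C_B(l)` -/
abbrev Yt (F : G → Subgroup G) (t l : G) : Subgroup G := Bt F t l ⊓ cen l

/-- `t` is an involution, `l` an element of odd prime order commuting with it -/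
structure Pr (t l : G) : Prop where
  inv : orderOf t = 2
  pr : (orderOf l).Prime
  od : Odd (orderOf l)
  cm : l ∈ cen t

/-- every pair is of the big type -/
def Big (F : G → Subgroup G) : Prop :=
  ∀ t l, Pr t l → orderOf l = 3 ∧ Nat.card (Yt F t l) = 4 ∧ Nat.card (Bt F t l) = 64

theorem mem_cen {t a : G} : a ∈ cen t ↔ a * t = t * a := mem_centralizer_singleton_iff

theorem mem_cj {g a : G} {Q : Subgroup G} : a ∈ cj g Q ↔ g⁻¹ * a * g ∈ Q := by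
  constructor
  · rintro ⟨b, hb, rfl⟩
    simpa [mul_assoc] using hb
  · intro h
    exact ⟨g⁻¹ * a * g, h, by simp [mul_assoc]⟩

end Cfsg.Agent.RC
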