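import Cfsg.Agent.RC.Defs
import Cfsg.Prelude.Def_TwoFusion

/-! Project RC (S3860): more definitions. -/

set_option autoImplicit false

namespace Cfsg.Agent.RC

open Subgroup

universe u

variable {G : Type u} [Group G]

/-- all involution centralisers are 2-groups -/
def CIT (G : Type u) [Group G] : Prop := ∀ t : G, orderOf t = 2 → IsPGroup 2 (cen t)

/-- some Sylow 2-subgroup has a central elementary abelian subgroup of order at least 8 -/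
def Z8 (G : Type u) [Group G] : Prop := ∃ (P : Sylow 2 G) (E : Subgroup G), E ≤ P ∧ (P : Subgroup G) ≤ Cs E ∧
  (∀ e ∈ E, e * e = 1) ∧ 8 ≤ Nat.card E

/-- `Γ`-real elements of odd order commute with no involution -/
def Re (Γ : Subgroup (MulAut G)) : Prop :=
  ∀ y : G, y ≠ 1 → Odd (orderOf y) → ∀ α ∈ Γ, α y = y⁻¹ → ∀ u : G, orderOf u = 2 → u * y ≠ y * u

/-- the automorphism attached to a `Γ`-real element of odd order -/
structure Ab (Γ : Subgroup (MulAut G)) (y : G) (τ : MulAut G) (N : Subgroup G) : Prop where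
  mem : τ ∈ Γ
  ord : orderOf τ = 2
  yN : y ∈ N
  le : N ≤ Fx τ
  nr : Fx τ ≤ nor N
  od : Odd (Nat.card N)
  cm : ∀ a ∈ N, ∀ b ∈ N, a * b = b * a
  inv : ∀ u, orderOf u = 2 → τ u = u → ∀ a ∈ N, u * a * u⁻¹ = a⁻¹
  ex : ∃ u, orderOf u = 2 ∧ τ u = u
  n4 : ∀ u v, orderOf u = 2 → orderOf v = 2 → τ u = u → τ v = v → u * v = v * u → u = v

/-- `B` is special with centre `Y` -/
structure Sp (F : G → Subgroup G) (t l : G) : Prop where
  cz : ∀ b, b ∈ Yt F t l ↔ b ∈ Bt F t l ∧ b ∈ Cs (Bt F t l)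
  el : ∀ y ∈ Yt F t l, y * y = 1
  c4 : Nat.card (Yt F t l) = 2 ∨ Nat.card (Yt F t l) = 4
  tY : t ∈ Yt F t l
  cm : ∀ a ∈ Bt F t l, ∀ b ∈ Bt F t l, a * b * a⁻¹ * b⁻¹ ∈ Yt F t l
  sq : ∀ a ∈ Bt F t l, a * a ∈ Yt F t l
  dr : Yt F t l ≤ ⁅Bt F t l, Bt F t l⁆

/-- the preimage of the fixed points of `τ` on `B / Y` -/
structure Ax (F : G → Subgroup G) (t l : G) (τ : MulAut G) (A : Subgroup G) : Prop where
  mem : ∀ b, b ∈ A ↔ b ∈ Bt F t l ∧ b⁻¹ * τ b ∈ Yt F t l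
  lt : Yt F t l < A
  nl : l ∈ nor A
  tau : ∀ b ∈ A, τ b ∈ A
  im : ∀ b ∈ Bt F t l, b⁻¹ * τ b ∈ A
  c16 : Nat.card A ≤ 16
  sq : Nat.card (Bt F t l) * Nat.card (Yt F t l) ≤ Nat.card A ^ 2

/-- `b'` lies in the "point" (orbit of `⟨l⟩` on `B / Y`) of `b` -/
def Sm (F : G → Subgroup G) (t l b b' : G) : Prop := ∃ i : ℕ, b' * (l ^ i * b * (l ^ i)⁻¹)⁻¹ ∈ Yt F t l

/-- the big configuration at `t, l` -/
structure Bg (F : G → Subgroup G) (t l : G) : Prop where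
  c1 : C1 F
  big : Big F
  pr : Pr t l

end Cfsg.Agent.RC
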