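import Cfsg.Agent.RC.Df2
import Cfsg.Agent.CS4.L2e

/-! RC/Ev1 (S3860). -/

set_option autoImplicit false

namespace Cfsg.Agent.RC

open Subgroup

universe u

variable {G : Type u} [Group G] [Finite G]

theorem ev1 {F : Type} [Field F] [Fintype F] (h : 8 ≤ Fintype.card F) (he : Even (Fintype.card F))
    (e : G ≃* Matrix.ProjectiveSpecialLinearGroup (Fin 2) F) : CIT G ∧ Z8 G := by
  classical
  have h2 : (2 : F) = 0 := by
    have := FiniteField.even_card_iff_char_two.2 (Nat.even_iff.1 he)
    have k := ringChar.Nat.cast_ringChar (R := F)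
    rw [this] at k
    exact_mod_cast k
  let f : G ≃* Matrix.SpecialLinearGroup (Fin 2) F :=
    (e.trans (QuotientGroup.quotientMulEquivOfEq (CS4.L2e.center_eq h2))).trans QuotientGroup.quotientBot
  have sq : ∀ (x : G) (k : ℕ), x ^ 2 ^ k = 1 → x * x = 1 := fun x k hx =>
    f.injective (by
      rw [map_mul, map_one]
      exact CS4.L2e.sq_of_tr h2 (CS4.L2e.tr_of_pow h2 k _ (by rw [← map_pow, hx, map_one])))
  refine ⟨fun t ht x => ⟨1, Subtype.ext ?_⟩, ?_⟩
  · have tt : t * t = 1 := by rw [← pow_two, ← ht, pow_orderOf_eq_one]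
    have t1 : f t ≠ 1 := fun k => by
      rw [(map_eq_one_iff f f.injective).1 k, orderOf_one] at ht
      exact absurd ht (by norm_num)
    have := CS4.L2e.sq_of_comm h2 (t := f t) (x := f x) (by rw [← map_mul, tt, map_one]) t1
      (by rw [← map_mul, ← map_mul, mem_cen.1 x.2])
    show (x : G) ^ 2 ^ 1 = 1
    rw [pow_one, pow_two]
    exact f.injective (by rw [map_mul, this, map_one])
  · let φ : Multiplicative F →* G := f.symm.toMonoidHom.comp (CS4.L2e.uni F)
    have hφ : Function.Injective φ := f.symm.injective.comp CS4.L2e.uni_inj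
    have hU : IsPGroup 2 φ.range := by
      rintro ⟨_, b, rfl⟩
      refine ⟨1, Subtype.ext ?_⟩
      show (f.symm (CS4.L2e.uni F b)) ^ 2 ^ 1 = 1
      rw [pow_one, pow_two, ← map_mul,
        CS4.L2e.sq_of_tr h2 (by show (1 : F) + 1 = 0; linear_combination h2), map_one]
    obtain ⟨P, hP⟩ := hU.exists_le_sylow
    have el : ∀ x ∈ (P : Subgroup G), x * x = 1 := fun x hx => by
      obtain ⟨k, hk⟩ := P.isPGroup' ⟨x, hx⟩
      exact sq x k (congrArg Subtype.val hk)
    refine ⟨P, φ.range, hP, fun x hx y hy => ?_, fun x hx => el x (hP hx), ?_⟩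
    · have hy' : y ∈ (P : Subgroup G) := hP hy
      have a := inv_eq_of_mul_eq_one_right (el x hx)
      have b := inv_eq_of_mul_eq_one_right (el y hy')
      have c := inv_eq_of_mul_eq_one_right (el (x * y) (mul_mem hx hy'))
      rw [mul_inv_rev, a, b] at c
      exact c
    · rw [← Nat.card_congr (MonoidHom.ofInjective hφ).toEquiv, Nat.card_congr Multiplicative.toAdd,
        Nat.card_eq_fintype_card]
      exact h

end Cfsg.Agent.RC
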