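import Cfsg.Agent.RC.Df2
import Cfsg.Agent.CS4.L34
import Cfsg.Agent.S0819

/-! RC/L34c (S3860): the elements of order 5 of `L₃(4)`. -/

set_option autoImplicit false

namespace Cfsg.Agent.RC

open Subgroup

universe u

variable {G : Type u} [Group G] [Finite G]

private theorem l34_pow' (g : Matrix.ProjectiveSpecialLinearGroup (Fin 3) H29.F4) :
    ∃ k ∈ [3, 4, 5, 7], g ^ k = 1 := by
  obtain ⟨A, rfl⟩ := QuotientGroup.mk_surjective g
  obtain ⟨k, hk, h1, h2⟩ := S0819.key (A : Matrix (Fin 3) (Fin 3) H29.F4).trace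
    (A : Matrix (Fin 3) (Fin 3) H29.F4).adjugate.trace
  have h := S0819.pow_eq_co (A : Matrix (Fin 3) (Fin 3) H29.F4) A.2 k
  rw [h1, h2, zero_smul, zero_smul, zero_add, zero_add] at h
  have hc : A ^ k ∈ Subgroup.center (Matrix.SpecialLinearGroup (Fin 3) H29.F4) := by
    rw [Subgroup.mem_center_iff]
    intro B
    apply Subtype.ext
    rw [Matrix.SpecialLinearGroup.coe_mul, Matrix.SpecialLinearGroup.coe_mul,
      Matrix.SpecialLinearGroup.coe_pow, h]
    simp
  refine ⟨k, hk, ?_⟩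
  rw [← QuotientGroup.mk_pow, QuotientGroup.eq_one_iff]
  exact hc

private theorem l34_gen (hG : Nat.card G = 20160) (hp : ∀ g : G, ∃ k ∈ [3, 4, 5, 7], g ^ k = 1) :
    ∃ y : G, orderOf y = 5 ∧ IsConj y y⁻¹ ∧ ¬ 4 ∣ Nat.card (nor (zpowers y)) ∧ cen y ≤ zpowers y := by
  have : Fact (Nat.Prime 5) := ⟨by norm_num⟩
  have : Fact (Nat.Prime 2) := ⟨by norm_num⟩
  obtain ⟨y, hy⟩ := exists_prime_orderOf_dvd_card' (G := G) 5 (by rw [hG]; norm_num)
  have y5 : y ^ 5 = 1 := by rw [← hy]; exact pow_orderOf_eq_one y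
  have hcz : Nat.card (zpowers y) = 5 := by rw [Nat.card_zpowers, hy]
  have c5 : ∀ c ∈ cen y, c ^ 5 = 1 := by
    intro c hc
    have cm : Commute y c := (mem_cen.1 hc).symm
    obtain ⟨k, hk, ck⟩ := hp c
    obtain ⟨j, hj, cj⟩ := hp (y * c)
    rw [cm.mul_pow] at cj
    have e1 : y ^ (j * k) = 1 := by
      have : y ^ j = (c ^ j)⁻¹ := eq_inv_of_mul_eq_one_left cj
      rw [pow_mul, this, inv_pow, ← pow_mul, mul_comm, pow_mul, ck, one_pow, inv_one]
    have e2 := orderOf_dvd_of_pow_eq_one e1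
    rw [hy] at e2
    simp only [List.mem_cons, List.not_mem_nil, or_false] at hk hj
    by_cases k5 : k = 5
    · rw [← k5]; exact ck
    by_cases j5 : j = 5
    · rw [j5, y5, one_mul] at cj; exact cj
    exfalso
    rcases hk with rfl | rfl | rfl | rfl <;> rcases hj with rfl | rfl | rfl | rfl <;> omega
  have zc : zpowers y ≤ cen y := by
    rw [zpowers_le]; exact mem_cen.2 rfl
  have hC : cen y ≤ zpowers y := by
    have pg : IsPGroup 5 (cen y) := fun c => ⟨1, Subtype.ext (by simpa using c5 c.1 c.2)⟩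
    obtain ⟨n, hn⟩ := IsPGroup.iff_card.1 pg
    have d1 : Nat.card (cen y) ∣ 20160 := hG ▸ card_subgroup_dvd_card _
    have n1 : n ≤ 1 := by
      by_contra hh
      have : 5 ^ 2 ∣ 20160 := (pow_dvd_pow 5 (by omega)).trans (hn ▸ d1)
      omega
    refine (eq_of_le_of_card_ge zc ?_).ge
    rw [hn, hcz]
    interval_cases n <;> norm_num
  -- the normaliser
  have hfac : Nat.card (zpowers y) = 5 ^ (Nat.card G).factorization 5 := by
    rw [hcz, hG]
    have : (20160 : ℕ).factorization 5 = 1 := by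
      rw [show (20160 : ℕ) = 5 * 4032 by norm_num, Nat.factorization_mul (by norm_num) (by norm_num)]
      simp [Nat.Prime.factorization (show Nat.Prime 5 by norm_num),
        Nat.factorization_eq_zero_of_not_dvd (show ¬ 5 ∣ 4032 by norm_num)]
    rw [this, pow_one]
  let P : Sylow 5 G := Sylow.ofCard (zpowers y) hfac
  have hidx : (nor (zpowers y)).index ≡ 1 [MOD 5] := by
    have h1 := card_sylow_modEq_one 5 G
    rw [P.card_eq_index_normalizer] at h1
    exact h1
  have hmul : (nor (zpowers y)).index * Nat.card (nor (zpowers y)) = 20160 := by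
    rw [index_mul_card, hG]
  have hker : Nat.card (zpowers y).normalizerMonoidHom.ker = 5 := by
    rw [normalizerMonoidHom_ker]
    have e : centralizer ((zpowers y : Subgroup G) : Set G) = zpowers y := by
      apply le_antisymm
      · intro c hc
        exact hC (mem_cen.2 (mem_centralizer_iff.1 hc y (mem_zpowers y)).symm)
      · intro c hc
        rw [mem_centralizer_iff]
        intro d hd
        obtain ⟨a, rfl⟩ := mem_zpowers_iff.1 hc
        obtain ⟨b, rfl⟩ := mem_zpowers_iff.1 hd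
        exact zpow_mul_comm y b a
    rw [e, Nat.card_congr (subgroupOfEquivOfLe le_normalizer).toEquiv, hcz]
  have hr : Nat.card (zpowers y).normalizerMonoidHom.range ∣ 4 := by
    have := card_subgroup_dvd_card (zpowers y).normalizerMonoidHom.range
    rwa [IsCyclic.card_mulAut, hcz] at this
  have hN : Nat.card (nor (zpowers y)) = 5 * Nat.card (zpowers y).normalizerMonoidHom.range := by
    rw [← hker, ← index_ker, card_mul_index]
  have hN10 : Nat.card (nor (zpowers y)) = 10 := by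
    have h4 : Nat.card (zpowers y).normalizerMonoidHom.range ≤ 4 := Nat.le_of_dvd (by norm_num) hr
    generalize Nat.card (zpowers y).normalizerMonoidHom.range = d at hr hN h4
    rw [hN] at hmul ⊢
    unfold Nat.ModEq at hidx
    interval_cases d <;> omega
  refine ⟨y, hy, ?_, by rw [hN10]; norm_num, hC⟩
  obtain ⟨n, hn⟩ := exists_prime_orderOf_dvd_card' (G := nor (zpowers y)) 2 (by rw [hN10]; norm_num)
  have hn2 : orderOf (n : G) = 2 := by rw [← hn]; exact orderOf_coe n
  have nn : (n : G) * n = 1 := by rw [← pow_two, ← hn2]; exact pow_orderOf_eq_one _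
  have hm : (n : G) * y * (n : G)⁻¹ ∈ zpowers y := (mem_normalizer_iff.1 n.2 y).1 (mem_zpowers y)
  obtain ⟨k, hk⟩ := (Submonoid.mem_powers_iff _ _).1 ((mem_powers_iff_mem_zpowers).2 hm)
  have e1 : y ^ (k * k) = y := by
    rw [pow_mul, hk, conj_pow, hk]
    calc (n : G) * (n * y * (n : G)⁻¹) * (n : G)⁻¹ = (n * n) * y * ((n : G) * n)⁻¹ := by group
      _ = y := by rw [nn]; simp
  have e2 : k * k ≡ 1 [MOD 5] := by
    rw [← hy, ← pow_eq_pow_iff_modEq, e1, pow_one]
  have e3 : ¬ k ≡ 1 [MOD 5] := by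
    intro h1
    rw [← hy, ← pow_eq_pow_iff_modEq, hk, pow_one] at h1
    have : (n : G) ∈ zpowers y := hC (mem_cen.2 (by rw [← mul_inv_eq_iff_eq_mul]; exact h1))
    have := orderOf_dvd_of_mem_zpowers this
    rw [hn2, hy] at this
    omega
  have e4 : k ≡ 4 [MOD 5] := by
    unfold Nat.ModEq at *
    rw [Nat.mul_mod] at e2
    have : k % 5 < 5 := Nat.mod_lt _ (by norm_num)
    generalize k % 5 = r at *
    interval_cases r <;> omega
  rw [← hy, ← pow_eq_pow_iff_modEq, hk] at e4
  rw [isConj_iff]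
  refine ⟨n, ?_⟩
  rw [e4]
  apply eq_inv_of_mul_eq_one_left
  rw [← pow_succ]; exact y5

theorem l34c {F : Type} [Field F] [Fintype F] (h : Fintype.card F = 4) (e : G ≃* Matrix.ProjectiveSpecialLinearGroup (Fin 3) F) :
    ∃ y : G, orderOf y = 5 ∧ IsConj y y⁻¹ ∧ ¬ 4 ∣ Nat.card (nor (zpowers y)) ∧ cen y ≤ zpowers y := by
  refine l34_gen ((Nat.card_congr e.toEquiv).trans (CS4.L34.card_psl h)) fun g => ?_
  let f := e.trans (H29.pslEquiv (Fin 3) (H29.equivF4 h))
  obtain ⟨k, hk, h1⟩ := l34_pow' (f g)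
  exact ⟨k, hk, f.injective (by rw [map_pow, h1, map_one])⟩

end Cfsg.Agent.RC
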