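import Cfsg.Agent.RC.Df2
import Cfsg.Agent.H3.PComplement

/-! RC/Rk1 (S3860): Frattini argument and Burnside's theorem. -/

set_option autoImplicit false

namespace Cfsg.Agent.RC

open Subgroup

universe u

variable {G : Type u} [Group G] [Finite G]

namespace Rk1

theorem nrm [Fact (Nat.Prime 2)] (P : Sylow 2 G) (hT : ∀ c ∈ nor (P : Subgroup G), Odd (orderOf c) → c ∈ Cs (P : Subgroup G)) :
    Cfsg.HasNormalPComplement 2 (nor (P : Subgroup G)) := by
  have hC : Cfsg.HasNormalPComplement 2 (Cs (P : Subgroup G)) := by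
    let Q : Sylow 2 (Cs (P : Subgroup G)) := default
    refine H3.hasNormalPComplement_of_normalizer_le_centralizer Q fun c _ x hx => Subtype.ext ?_
    have h1 : IsPGroup 2 ((Q : Subgroup (Cs (P : Subgroup G))).map (Cs (P : Subgroup G)).subtype) := Q.isPGroup'.map _
    have h2 := P.is_maximal' (IsPGroup.to_sup_of_normal_left' P.isPGroup' h1
      ((map_subtype_le _).trans (centralizer_le_normalizer _))) le_sup_left
    have h3 : (x : G) ∈ (P : Subgroup G) := h2.le (mem_sup_right ⟨x, hx, rfl⟩)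
    exact c.2 x h3
  rw [H3.hasNormalPComplement_iff_mul] at hC ⊢
  intro x y hx hy
  rw [← orderOf_coe] at hx hy ⊢
  have := hC ⟨x, hT x x.2 (Nat.coprime_two_right.1 hx)⟩ ⟨y, hT y y.2 (Nat.coprime_two_right.1 hy)⟩
    (by rwa [← orderOf_coe]) (by rwa [← orderOf_coe])
  rwa [← orderOf_coe] at this

theorem main [Fact (Nat.Prime 2)] (P : Sylow 2 G) (N K : Subgroup G) [N.Normal] [K.Normal] (h1 : Odd (Nat.card N))
    (h2 : Odd K.index) {j : ℕ} (h3 : N.relIndex K = 2 ^ j)
    (hT : ∀ c ∈ nor (P : Subgroup G), Odd (orderOf c) → c ∈ Cs (P : Subgroup G)) : Cfsg.HasNormalPComplement 2 G := by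
  have pK : (P : Subgroup G) ≤ K := fun x hx => by
    obtain ⟨n, hn⟩ := P.isPGroup' ⟨x, hx⟩
    have e : x ^ 2 ^ n = 1 := congrArg Subtype.val hn
    have k1 : orderOf (x : G ⧸ K) ∣ 2 ^ n := orderOf_dvd_of_pow_eq_one (by rw [← QuotientGroup.mk_pow, e]; rfl)
    have k2 : orderOf (x : G ⧸ K) ∣ K.index := orderOf_dvd_natCard _
    exact (QuotientGroup.eq_one_iff x).1 (orderOf_eq_one_iff.1
      (Nat.eq_one_of_dvd_coprimes ((Nat.coprime_two_left.2 h2).pow_left n) k1 k2))
  have kP : K ≤ (P : Subgroup G) ⊔ N := by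
    have k1 : ((P : Subgroup G) ⊔ N).relIndex K ∣ 2 ^ j := h3 ▸ relIndex_dvd_of_le_left K le_sup_right
    have k2 : ((P : Subgroup G) ⊔ N).relIndex K ∣ (P : Subgroup G).index :=
      (H3.relIndex_dvd_index_of_normal_right _ K).trans (index_dvd_of_le le_sup_left)
    exact relIndex_eq_one.1 (Nat.eq_one_of_dvd_coprimes
      (((Nat.Prime.coprime_iff_not_dvd Nat.prime_two).2 P.not_dvd_index).pow_left j) k1 k2)
  have fr : nor (P : Subgroup G) ⊔ N = ⊤ := by
    rw [eq_top_iff, ← P.normalizer_sup_eq_top' pK]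
    exact sup_le le_sup_left (kP.trans (sup_le_sup_right le_normalizer N))
  refine H3.hasNormalPComplement_of_quotient_coprime N (Nat.coprime_two_right.2 h1)
    (H3.hasNormalPComplement_of_surjective ((QuotientGroup.mk' N).comp (nor (P : Subgroup G)).subtype) ?_ (nrm P hT))
  rw [← MonoidHom.range_eq_top, MonoidHom.range_comp, range_subtype, eq_top_iff,
    ← map_top_of_surjective _ (QuotientGroup.mk'_surjective N), ← fr, Subgroup.map_sup]
  exact sup_le le_rfl (by rw [QuotientGroup.map_mk'_self]; exact bot_le)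

end Rk1

theorem rk1 (t : G) (ht : orderOf t = 2) (hc : Cl (cen t)) (T : Subgroup G) (hT2 : IsPGroup 2 T) (hle : T ≤ cen t)
    (hodd : Odd (T.relIndex (cen t)))
    (hT : ∀ c ∈ cen t, c ∈ nor T → Odd (orderOf c) → c ∈ Cs T) : Cfsg.HasNormalPComplement 2 (cen t) := by
  have : Fact (Nat.Prime 2) := ⟨Nat.prime_two⟩
  obtain ⟨N, K, nk, kx, xn, xk, h1, h2, j, h3⟩ := hc
  have := (normal_subgroupOf_iff_le_normalizer (nk.trans kx)).2 xn
  have := (normal_subgroupOf_iff_le_normalizer kx).2 xk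
  have p2 : IsPGroup 2 (T.subgroupOf (cen t)) := hT2.comap_subtype
  refine Rk1.main (p2.toSylow fun h => (Nat.not_even_iff_odd.2 hodd) (even_iff_two_dvd.2 h)) (N.subgroupOf (cen t))
    (K.subgroupOf (cen t)) (by rwa [Nat.card_congr (subgroupOfEquivOfLe (nk.trans kx)).toEquiv]) h2
    (j := j) (by rwa [relIndex_subgroupOf kx]) fun c hc ho x hx => Subtype.ext ?_
  refine hT c c.2 ?_ (by rwa [orderOf_coe]) x hx
  have e : c ∈ (nor T).subgroupOf (cen t) := by rwa [subgroupOf_normalizer_eq hle]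
  exact e

end Cfsg.Agent.RC
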